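import Cfsg.Agent.H481.E6C.CoreC
import Cfsg.Agent.H757.Hall.E6One
import Cfsg.Agent.H343.Hall.EComm

/-!
# S2223, E-3: `coreRow_c` (helper481)
-/

set_option autoImplicit false

namespace Cfsg.Agent.H481.E6C

open Cfsg.Lie Cfsg.Agent.ChevalleyStructure.E6Min.Tables Cfsg.Agent.ChevalleyStructure.E6Min.Basic
  Cfsg.Agent.ChevalleyStructure.E6Min.Torus Cfsg.Agent.H125.Hall Cfsg.Agent.H125.Hall.E6
open scoped Matrix

variable {K : Type*} [Field K]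

/-- EF -/
theorem coreRow_c [Finite K] {p : ℕ} [Fact p.Prime] [CharP K p] (hp : p ≠ 2) {G : Subgroup (GL I27 K)}
    (hG : G ≤ Zgrp K) {k0 : Subfield K} (hk : FrIn G k0)
    (hy : ∀ k : Fin 4, ∃ y ∈ G, Nrm k0 id y ∧ (y : Matrix I27 I27 K) ^ 4 = Ph k (-1) ∧
      ∃ P : Polynomial K, P ≠ 0 ∧ P.natDegree ≤ 4 ∧
        Module.finrank K (LinearMap.range (Polynomial.aeval ((y : Matrix I27 I27 K).mulVecLin) P)) ≤ 2) :
    CoreRow p ↥G := by
  have h2 : (2 : K) ≠ 0 := by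
    intro h
    have h3 : ((2 : ℕ) : K) = 0 := by exact_mod_cast h
    rw [CharP.cast_eq_zero_iff K p] at h3
    exact hp ((Nat.prime_dvd_prime_iff_eq Fact.out Nat.prime_two).1 h3)
  exact coreRow_c_of (fun hz _ hm hzm hr => Cfsg.Agent.H757.Hall.eq_one_of_rank hz hm hzm hr)
    (fun hg hc h3 h4 h5 => Cfsg.Agent.H343.Hall.EComm.comm_of_frame_of
      (fun hz h6 h7 => Cfsg.Agent.H757.Hall.eq_one_of_fix hz h6 h7) h2 hg hc h3 h4 h5) hp hG hk hy

end Cfsg.Agent.H481.E6C
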