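import Cfsg.Agent.H125.Hall.E6Base

/-!
# S2223, E6 rows: the maps `Ph` (helper481)

`Ph k` is multiplicative and injective, the images for different `k` commute, `Ph k (-1)` commutes with everything that
normalises the image of `SL₂(k0)`, `SL₂(k0)` is contained in a group that contains the root elements.
-/

set_option autoImplicit false

namespace Cfsg.Agent.H481.E6C

open Cfsg.Lie Cfsg.Agent.ChevalleyStructure.E6Min.Tables Cfsg.Agent.ChevalleyStructure.E6Min.Basic
  Cfsg.Agent.ChevalleyStructure.E6Min.Torus Cfsg.Agent.H125.Hall Cfsg.Agent.H125.Hall.E6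
open scoped Matrix

section algebra

variable {K R : Type*} [Field K] [Ring R] [Algebra K R]

/-- the abstract form of `Ph` -/
def ph (N M : R) (A : Matrix (Fin 2) (Fin 2) K) : R :=
  1 + (A 0 0 - 1) • (N * M) + (A 1 1 - 1) • (M * N) + A 0 1 • N + A 1 0 • M

/-- relations -/
structure Pr (N M : R) : Prop where
  nn : N * N = 0
  mm : M * M = 0
  nmn : N * M * N = N
  mnm : M * N * M = M

theorem ph_mul {N M : R} (h : Pr N M) (A B : Matrix (Fin 2) (Fin 2) K) : ph N M A * ph N M B = ph N M (A * B) := by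
  obtain ⟨h1, h2, h3, h4⟩ := h
  have e1 : N * (M * N) = N := by rw [← mul_assoc, h3]
  have e2 : M * (N * M) = M := by rw [← mul_assoc, h4]
  have e3 : N * (N * M) = 0 := by rw [← mul_assoc, h1, zero_mul]
  have e4 : M * (M * N) = 0 := by rw [← mul_assoc, h2, zero_mul]
  simp only [ph, mul_add, add_mul, one_mul, mul_one, smul_mul_assoc, mul_smul_comm, mul_assoc, e1, e2, e3, e4, h1, h2,
    mul_zero, smul_zero, Matrix.mul_apply, Fin.sum_univ_two]
  module

theorem ph_one (N M : R) : ph N M (1 : Matrix (Fin 2) (Fin 2) K) = 1 := by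
  simp [ph]

theorem ph_comm {N M X : R} (hN : X * N = N * X) (hM : X * M = M * X) (A : Matrix (Fin 2) (Fin 2) K) :
    X * ph N M A = ph N M A * X := by
  have e1 : X * (N * M) = N * M * X := by rw [← mul_assoc, hN, mul_assoc, hM, mul_assoc]
  have e2 : X * (M * N) = M * N * X := by rw [← mul_assoc, hM, mul_assoc, hN, mul_assoc]
  simp only [ph, mul_add, add_mul, one_mul, mul_one, smul_mul_assoc, mul_smul_comm, e1, e2, hN, hM]

theorem ph_comm' {N M N' M' : R} (h1 : N * N' = N' * N) (h2 : N * M' = M' * N) (h3 : M * N' = N' * M)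
    (h4 : M * M' = M' * M) (A B : Matrix (Fin 2) (Fin 2) K) :
    ph N M A * ph N' M' B = ph N' M' B * ph N M A := by
  refine ph_comm ?_ ?_ B
  · exact (ph_comm h1.symm h3.symm A).symm
  · exact (ph_comm h2.symm h4.symm A).symm

theorem ph_inj {N M : R} (h : Pr N M) (hN : N ≠ 0) (hM : M ≠ 0) {A B : Matrix (Fin 2) (Fin 2) K}
    (hAB : ph N M A = ph N M B) : A = B := by
  obtain ⟨h1, h2, h3, h4⟩ := h
  have e1 : N * (M * N) = N := by rw [← mul_assoc, h3]
  have e2 : M * (N * M) = M := by rw [← mul_assoc, h4]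
  have e3 : N * (N * M) = 0 := by rw [← mul_assoc, h1, zero_mul]
  have e4 : M * (M * N) = 0 := by rw [← mul_assoc, h2, zero_mul]
  have e5 : N * M ≠ 0 := fun h => hN (by rw [← h3, h, zero_mul])
  have e6 : M * N ≠ 0 := fun h => hM (by rw [← h4, h, zero_mul])
  have key : ∀ X Y : R, X * (ph N M A) * Y = X * (ph N M B) * Y := fun X Y => by rw [hAB]
  have k1 := key (N * M) N
  have k2 := key (M * N) M
  have k3 := key N N
  have k4 := key M M
  simp only [ph, mul_add, add_mul, one_mul, mul_one, smul_mul_assoc, mul_smul_comm, mul_assoc, e1, e2, e3, e4, h1, h2,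
    mul_zero, smul_zero, add_zero, zero_add] at k1 k2 k3 k4
  have l1 : (A 0 0 - B 0 0) • N = 0 := by
    have : A 0 0 • N = B 0 0 • N := by
      calc A 0 0 • N = N + (A 0 0 - 1) • N := by module
        _ = N + (B 0 0 - 1) • N := k1
        _ = B 0 0 • N := by module
    rw [sub_smul, this, sub_self]
  have l2 : (A 1 1 - B 1 1) • M = 0 := by
    have : A 1 1 • M = B 1 1 • M := by
      calc A 1 1 • M = M + (A 1 1 - 1) • M := by module
        _ = M + (B 1 1 - 1) • M := k2
        _ = B 1 1 • M := by module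
    rw [sub_smul, this, sub_self]
  have l3 : (A 1 0 - B 1 0) • N = 0 := by rw [sub_smul, k3, sub_self]
  have l4 : (A 0 1 - B 0 1) • M = 0 := by rw [sub_smul, k4, sub_self]
  ext i j
  fin_cases i <;> fin_cases j
  · exact sub_eq_zero.1 ((smul_eq_zero.1 l1).resolve_right hN)
  · exact sub_eq_zero.1 ((smul_eq_zero.1 l4).resolve_right hM)
  · exact sub_eq_zero.1 ((smul_eq_zero.1 l3).resolve_right hN)
  · exact sub_eq_zero.1 ((smul_eq_zero.1 l2).resolve_right hM)

end algebra

section Ph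

variable {K : Type*} [Field K]

theorem bI_lt (k : Fin 4) : bI k < 72 := by
  fin_cases k <;> simp [bI]

theorem Ph_eq (k : Fin 4) (A : Matrix (Fin 2) (Fin 2) K) : Ph k A = ph (Nm K (bI k)) (Nm K (71 - bI k)) A := rfl

theorem pr (k : Fin 4) : Pr (Nm K (bI k)) (Nm K (71 - bI k)) := by
  have h := bI_lt k
  have h' : 71 - bI k < 72 := by omega
  refine ⟨Nm_sq h, Nm_sq h', Nm_mul_opp_mul h, ?_⟩
  have := Nm_mul_opp_mul (F := K) h'
  rwa [opp_opp h] at this

theorem Nm_ne {r : ℕ} (hr : r < 72) : Nm K r ≠ 0 := by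
  intro h
  have h1 := Nm_apply (F := K) r (Cfsg.Agent.ChevalleyStructure.E6Min.Adjoint.row r)
    (sr r (Cfsg.Agent.ChevalleyStructure.E6Min.Adjoint.row r))
  rw [if_pos rfl, h, Matrix.zero_apply] at h1
  have h2 := Cfsg.Agent.ChevalleyStructure.E6Min.Adjoint.sg_sq r _
    (Cfsg.Agent.ChevalleyStructure.E6Min.Adjoint.row_spec hr).1
  have h3 := congrArg (Int.cast : ℤ → K) h2
  rw [Int.cast_mul, ← h1, mul_zero, Int.cast_one] at h3
  exact zero_ne_one h3

theorem Ph_mul (k : Fin 4) (A B : Matrix (Fin 2) (Fin 2) K) : Ph k A * Ph k B = Ph k (A * B) := ph_mul (pr k) A B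

theorem Ph_one (k : Fin 4) : Ph k (1 : Matrix (Fin 2) (Fin 2) K) = 1 := ph_one _ _

theorem Ph_inj (k : Fin 4) {A B : Matrix (Fin 2) (Fin 2) K} (h : Ph k A = Ph k B) : A = B :=
  ph_inj (pr k) (Nm_ne (bI_lt k)) (Nm_ne (by have := bI_lt k; omega)) h

theorem kN_bI : ∀ k l : Fin 4, k ≠ l → kN (bI k) (bI l) = 127 ∧ kN (bI k) (71 - bI l) = 127 ∧
    kN (71 - bI k) (bI l) = 127 ∧ kN (71 - bI k) (71 - bI l) = 127 ∧ bI k + bI l ≠ 71 ∧ bI k + (71 - bI l) ≠ 71 ∧
    (71 - bI k) + bI l ≠ 71 ∧ (71 - bI k) + (71 - bI l) ≠ 71 := by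
  decide +kernel

theorem Ph_comm {k l : Fin 4} (h : k ≠ l) (A B : Matrix (Fin 2) (Fin 2) K) : Ph k A * Ph l B = Ph l B * Ph k A := by
  obtain ⟨h1, h2, h3, h4, h5, h6, h7, h8⟩ := kN_bI k l h
  have hk := bI_lt k
  have hl := bI_lt l
  have hk' : 71 - bI k < 72 := by omega
  have hl' : 71 - bI l < 72 := by omega
  exact ph_comm' (Nm_comm_of_none hk hl (by rwa [add_comm]) h1) (Nm_comm_of_none hk hl' (by rwa [add_comm]) h2)
    (Nm_comm_of_none hk' hl (by rwa [add_comm]) h3) (Nm_comm_of_none hk' hl' (by rwa [add_comm]) h4) A B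

theorem Ph_up (k : Fin 4) (t : K) : Ph k !![1, t; 0, 1] = ((zU (bI k) t : GL I27 K) : Matrix I27 I27 K) := by
  rw [coe_zU (bI_lt k), zM_def]
  simp [Ph]

theorem Ph_lo (k : Fin 4) (t : K) : Ph k !![1, 0; t, 1] = ((zU (71 - bI k) t : GL I27 K) : Matrix I27 I27 K) := by
  rw [coe_zU (by have := bI_lt k; omega), zM_def]
  simp [Ph]

/-- elements of `SL₂(k0)` in `G` -/
theorem Ph_mem {G : Subgroup (GL I27 K)} {k0 : Subfield K} (hk : FrIn G k0) (k : Fin 4)
    {A : Matrix (Fin 2) (Fin 2) K} (hA : SlIn k0 A) : ∃ g ∈ G, (g : Matrix I27 I27 K) = Ph k A := by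
  have hmul : ∀ {A B : Matrix (Fin 2) (Fin 2) K}, (∃ g ∈ G, (g : Matrix I27 I27 K) = Ph k A) →
      (∃ g ∈ G, (g : Matrix I27 I27 K) = Ph k B) → ∃ g ∈ G, (g : Matrix I27 I27 K) = Ph k (A * B) := by
    rintro A B ⟨g, hg, h1⟩ ⟨g', hg', h1'⟩
    exact ⟨g * g', mul_mem hg hg', by rw [Units.val_mul, h1, h1', Ph_mul]⟩
  have hup : ∀ t ∈ k0, ∃ g ∈ G, (g : Matrix I27 I27 K) = Ph k !![1, t; 0, 1] := fun t ht =>
    ⟨zU (bI k) t, (hk k t ht).1, (Ph_up k t).symm⟩
  have hlo : ∀ t ∈ k0, ∃ g ∈ G, (g : Matrix I27 I27 K) = Ph k !![1, 0; t, 1] := fun t ht =>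
    ⟨zU (71 - bI k) t, (hk k t ht).2, (Ph_lo k t).symm⟩
  have hmain : ∀ A : Matrix (Fin 2) (Fin 2) K, SlIn k0 A → A 1 0 ≠ 0 → ∃ g ∈ G, (g : Matrix I27 I27 K) = Ph k A := by
    intro A hA hc
    have hd := hA.1
    rw [Matrix.det_fin_two] at hd
    have e : A = !![1, (A 0 0 - 1) / A 1 0; 0, 1] * !![1, 0; A 1 0, 1] * !![1, (A 1 1 - 1) / A 1 0; 0, 1] := by
      ext i j
      fin_cases i <;> fin_cases j
      · simp [Matrix.mul_apply, Fin.sum_univ_two]
        field_simp
        ring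
      · simp [Matrix.mul_apply, Fin.sum_univ_two]
        field_simp
        linear_combination -hd
      · simp [Matrix.mul_apply, Fin.sum_univ_two]
      · simp [Matrix.mul_apply, Fin.sum_univ_two]
        field_simp
        ring
    rw [e]
    refine hmul (hmul (hup _ ?_) (hlo _ (hA.2 1 0))) (hup _ ?_)
    · exact div_mem (sub_mem (hA.2 0 0) (one_mem _)) (hA.2 1 0)
    · exact div_mem (sub_mem (hA.2 1 1) (one_mem _)) (hA.2 1 0)
  by_cases hc : A 1 0 = 0
  · have hd := hA.1
    rw [Matrix.det_fin_two, hc, mul_zero, sub_zero] at hd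
    have h0 : A 0 0 ≠ 0 := left_ne_zero_of_mul_eq_one hd
    have e : A = !![1, 0; -1, 1] * (!![1, 0; 1, 1] * A) := by
      rw [← mul_assoc]
      have : (!![1, 0; -1, 1] * !![1, 0; 1, 1] : Matrix (Fin 2) (Fin 2) K) = 1 := by
        ext i j
        fin_cases i <;> fin_cases j <;> simp [Matrix.mul_apply, Fin.sum_univ_two]
      rw [this, one_mul]
    rw [e]
    refine hmul (hlo _ (neg_mem (one_mem _))) (hmain _ ⟨?_, ?_⟩ ?_)
    · rw [Matrix.det_mul, hA.1]
      simp [Matrix.det_fin_two]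
    · intro i j
      fin_cases i <;> fin_cases j
      · simpa [Matrix.mul_apply, Fin.sum_univ_two] using hA.2 0 0
      · simpa [Matrix.mul_apply, Fin.sum_univ_two] using hA.2 0 1
      · simpa [Matrix.mul_apply, Fin.sum_univ_two] using add_mem (hA.2 0 0) (hA.2 1 0)
      · simpa [Matrix.mul_apply, Fin.sum_univ_two] using add_mem (hA.2 0 1) (hA.2 1 1)
    · simpa [Matrix.mul_apply, Fin.sum_univ_two, hc] using h0
  · exact hmain A hA hc

/-- `Ph l (-1)` commutes with everything that normalises the frame -/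
theorem Nrm.comm {k0 : Subfield K} (h2 : (2 : K) ≠ 0) {y : GL I27 K} (hy : Nrm k0 id y) (l : Fin 4) :
    (y : Matrix I27 I27 K) * Ph l (-1) = Ph l (-1) * (y : Matrix I27 I27 K) := by
  have hs : SlIn k0 (-1) := by
    refine ⟨by simp [Matrix.det_fin_two], fun i j => ?_⟩
    rw [Matrix.neg_apply]
    refine neg_mem ?_
    rw [Matrix.one_apply]
    split_ifs
    · exact one_mem _
    · exact zero_mem _
  obtain ⟨A, hA, h1⟩ := hy l (-1) hs
  have h3 : Ph l (A * A) * (y : Matrix I27 I27 K) = y := by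
    rw [← Ph_mul, mul_assoc, id_eq] at *
    rw [← h1, ← mul_assoc, ← h1, mul_assoc, Ph_mul]
    simp [Ph_one]
  have h4 : Ph l (A * A) = 1 := by
    have := congrArg (· * ((y⁻¹ : GL I27 K) : Matrix I27 I27 K)) h3
    simp only [mul_assoc, ← Units.val_mul, mul_inv_cancel, Units.val_one, mul_one] at this
    exact this
  have h5 : A * A = 1 := Ph_inj l (by rw [h4, Ph_one])
  have hd := hA.1
  rw [Matrix.det_fin_two] at hd
  have a00 := congrFun (congrFun h5 0) 0
  have a01 := congrFun (congrFun h5 0) 1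
  have a10 := congrFun (congrFun h5 1) 0
  have a11 := congrFun (congrFun h5 1) 1
  simp only [Matrix.mul_apply, Fin.sum_univ_two, Matrix.one_apply_eq, Matrix.one_apply_ne (show (0 : Fin 2) ≠ 1 by decide),
    Matrix.one_apply_ne (show (1 : Fin 2) ≠ 0 by decide)] at a00 a01 a10 a11
  have ht : A 0 0 * (A 0 0 + A 1 1) = 2 := by linear_combination a00 + hd
  have ht0 : A 0 0 + A 1 1 ≠ 0 := by
    intro h
    rw [h, mul_zero] at ht
    exact h2 ht.symm
  have b01 : A 0 1 = 0 := by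
    have : A 0 1 * (A 0 0 + A 1 1) = 0 := by linear_combination a01
    exact (mul_eq_zero.1 this).resolve_right ht0
  have b10 : A 1 0 = 0 := by
    have : A 1 0 * (A 0 0 + A 1 1) = 0 := by linear_combination a10
    exact (mul_eq_zero.1 this).resolve_right ht0
  rw [b01, zero_mul, add_zero] at a00
  rw [b10, zero_mul, zero_add] at a11
  rw [b01, zero_mul, sub_zero] at hd
  have e11 : A 1 1 = A 0 0 := by
    calc A 1 1 = (A 0 0 * A 0 0) * A 1 1 := by rw [a00, one_mul]
      _ = A 0 0 * (A 0 0 * A 1 1) := by ring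
      _ = A 0 0 := by rw [hd, mul_one]
  rcases mul_self_eq_one_iff.1 a00 with h6 | h6
  · exfalso
    have hA1 : A = 1 := by
      ext i j
      fin_cases i <;> fin_cases j <;> simp [b01, b10, e11, h6]
    rw [hA1, id_eq, Ph_one, one_mul] at h1
    have h7 : Ph l (-1 : Matrix (Fin 2) (Fin 2) K) = 1 := by
      have := congrArg (((y⁻¹ : GL I27 K) : Matrix I27 I27 K) * ·) h1
      simp only [← mul_assoc, ← Units.val_mul, inv_mul_cancel, Units.val_one, one_mul] at this
      exact this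
    have h8 : (-1 : Matrix (Fin 2) (Fin 2) K) = 1 := Ph_inj l (by rw [h7, Ph_one])
    have h9 := congrFun (congrFun h8 0) 0
    rw [Matrix.neg_apply, Matrix.one_apply_eq] at h9
    apply h2
    linear_combination -h9
  · have hA1 : A = -1 := by
      ext i j
      fin_cases i <;> fin_cases j <;> simp [b01, b10, e11, h6]
    rw [hA1] at h1
    exact h1

end Ph

end Cfsg.Agent.H481.E6C
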