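import Cfsg.Agent.H481.E6C.Alg
import Cfsg.Agent.H408.Hall.MTwo

/-!
# S2223, E6 rows: `coreRow_c` (helper481)
-/

set_option autoImplicit false

namespace Cfsg.Agent.H481.E6C

open Cfsg.Lie Cfsg.Agent.ChevalleyStructure.E6Min.Tables Cfsg.Agent.ChevalleyStructure.E6Min.Basic
  Cfsg.Agent.ChevalleyStructure.E6Min.Torus Cfsg.Agent.H125.Hall Cfsg.Agent.H125.Hall.E6
open scoped Matrix Pointwise

section group

variable {Γ : Type*} [Group Γ]

theorem isPGroup_zpowers {g : Γ} {n : ℕ} (h : g ^ 2 ^ n = 1) : IsPGroup 2 (Subgroup.zpowers g) := by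
  rintro ⟨x, z, rfl⟩
  refine ⟨n, Subtype.ext ?_⟩
  show (g ^ z) ^ 2 ^ n = 1
  rw [← zpow_natCast, ← zpow_mul, mul_comm, zpow_mul, zpow_natCast, h, one_zpow]

theorem isPGroup_pair {i j : Γ} (hi : i ^ 2 ^ 2 = 1) (hj : j ^ 2 ^ 2 = 1) (hji : j * i * j⁻¹ = i⁻¹) :
    IsPGroup 2 (Subgroup.zpowers j ⊔ Subgroup.zpowers i : Subgroup Γ) := by
  refine IsPGroup.to_sup_of_normal_right' (isPGroup_zpowers hj) (isPGroup_zpowers hi) (Subgroup.zpowers_le.2 ?_)
  have h1 : j⁻¹ * i * j = i⁻¹ := by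
    have : j * i⁻¹ * j⁻¹ = i := by rw [← conj_inv, hji, inv_inv]
    nth_rewrite 1 [← this]
    group
  rw [Subgroup.mem_normalizer_iff]
  intro x
  constructor
  · rintro ⟨z, rfl⟩
    refine ⟨-z, ?_⟩
    show i ^ (-z) = j * i ^ z * j⁻¹
    rw [← conj_zpow, hji, inv_zpow, zpow_neg]
  · rintro ⟨z, hz⟩
    refine ⟨-z, ?_⟩
    have h2 : i ^ z = j * x * j⁻¹ := hz
    have h3 : x = j⁻¹ * i ^ z * j := by rw [h2]; group
    show i ^ (-z) = x
    rw [h3]
    have h4 := conj_zpow (i := z) (a := j⁻¹) (b := i)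
    rw [inv_inv] at h4
    rw [← h4, h1, inv_zpow, zpow_neg]

theorem conj_into [Finite Γ] (P : Sylow 2 Γ) {Q : Subgroup Γ} (hQ : IsPGroup 2 Q) :
    ∃ m : Γ, ∀ u ∈ Q, m⁻¹ * u * m ∈ P := by
  obtain ⟨P', hP'⟩ := hQ.exists_le_sylow
  obtain ⟨m, rfl⟩ := MulAction.exists_smul_eq Γ P P'
  refine ⟨m, fun u hu => ?_⟩
  have h : u ∈ (MulAut.conj m • (P : Subgroup Γ)) := hP' hu
  rw [Subgroup.mem_pointwise_smul_iff_inv_smul_mem] at h
  rw [← map_inv] at h
  have h1 : (MulAut.conj m⁻¹) u = m⁻¹ * u * m := by rw [MulAut.conj_apply, inv_inv]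
  have h2 : (MulAut.conj m⁻¹) u ∈ (P : Subgroup Γ) := h
  rwa [h1] at h2

end group

section sl

variable {K : Type*} [Field K] {k0 : Subfield K}

theorem slIn_mul {A B : Matrix (Fin 2) (Fin 2) K} (hA : SlIn k0 A) (hB : SlIn k0 B) : SlIn k0 (A * B) := by
  refine ⟨by rw [Matrix.det_mul, hA.1, hB.1, one_mul], fun i j => ?_⟩
  rw [Matrix.mul_apply]
  exact sum_mem fun l _ => mul_mem (hA.2 i l) (hB.2 l j)

theorem slIn_adj {A : Matrix (Fin 2) (Fin 2) K} (hA : SlIn k0 A) : SlIn k0 A.adjugate := by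
  refine ⟨by rw [Matrix.det_adjugate, hA.1, one_pow], fun i j => ?_⟩
  rw [Matrix.adjugate_fin_two]
  fin_cases i <;> fin_cases j
  · exact hA.2 1 1
  · exact neg_mem (hA.2 0 1)
  · exact neg_mem (hA.2 1 0)
  · exact hA.2 0 0

theorem nrm_Ph {g : GL I27 K} {k : Fin 4} {B : Matrix (Fin 2) (Fin 2) K} (hB : SlIn k0 B)
    (hg : (g : Matrix I27 I27 K) = Ph k B) : Nrm k0 id g := by
  intro l A hA
  by_cases hl : l = k
  · subst hl
    refine ⟨B * A * B.adjugate, slIn_mul (slIn_mul hB hA) (slIn_adj hB), ?_⟩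
    rw [hg, id_eq, Ph_mul, Ph_mul, mul_assoc _ _ B, Matrix.adjugate_mul, hB.1, one_smul, mul_one]
  · exact ⟨A, hA, by rw [hg, id_eq]; exact (Ph_comm hl A B).symm⟩

theorem nrm_one : Nrm k0 id (1 : GL I27 K) := fun l A hA => ⟨A, hA, by simp⟩

theorem nrm_mul {x y : GL I27 K} (hx : Nrm k0 id x) (hy : Nrm k0 id y) : Nrm k0 id (x * y) := by
  intro l A hA
  obtain ⟨A', hA', h1⟩ := hy l A hA
  obtain ⟨A'', hA'', h2⟩ := hx l A' hA'
  refine ⟨A'', hA'', ?_⟩
  rw [id_eq] at *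
  rw [Units.val_mul, mul_assoc, h1, ← mul_assoc, h2, mul_assoc]

theorem nrm_pow {x : GL I27 K} (hx : Nrm k0 id x) (n : ℕ) : Nrm k0 id (x ^ n) := by
  induction n with
  | zero => rw [pow_zero]; exact nrm_one
  | succ n ih => rw [pow_succ]; exact nrm_mul ih hx

theorem nrm_inv [Finite K] {x : GL I27 K} (hx : Nrm k0 id x) : Nrm k0 id x⁻¹ := by
  have : Finite (GL I27 K) := inferInstance
  have h1 : x⁻¹ = x ^ (orderOf x - 1) := by
    refine (eq_inv_of_mul_eq_one_left ?_).symm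
    rw [← pow_succ, Nat.sub_add_cancel (orderOf_pos x), pow_orderOf_eq_one]
  rw [h1]
  exact nrm_pow hx _

/-- the normaliser of the frame -/
def MG [Finite K] (G : Subgroup (GL I27 K)) (k0 : Subfield K) : Subgroup ↥G where
  carrier := {y | Nrm k0 id (y : GL I27 K)}
  mul_mem' hx hy := nrm_mul hx hy
  one_mem' := nrm_one
  inv_mem' hx := nrm_inv hx

theorem exists_pair {p : ℕ} [Fact p.Prime] [CharP K p] (k0 : Subfield K) :
    ∃ I J : Matrix (Fin 2) (Fin 2) K, SlIn k0 I ∧ SlIn k0 J ∧ I * I = -1 ∧ J * J = -1 ∧ I * (J * I) = J := by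
  have : NeZero p := ⟨(Fact.out : p.Prime).ne_zero⟩
  obtain ⟨a, b, hab⟩ := CharP.sq_add_sq K p (-1)
  push_cast at hab
  refine ⟨!![(a : K), b; b, -a], !![0, 1; -1, 0], ⟨?_, ?_⟩, ⟨?_, ?_⟩, ?_, ?_, ?_⟩
  · rw [Matrix.det_fin_two_of]
    linear_combination -hab
  · intro i j
    fin_cases i <;> fin_cases j
    · exact natCast_mem k0 a
    · exact natCast_mem k0 b
    · exact natCast_mem k0 b
    · exact neg_mem (natCast_mem k0 a)
  · rw [Matrix.det_fin_two_of]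
    ring
  · intro i j
    fin_cases i <;> fin_cases j
    · exact zero_mem k0
    · exact one_mem k0
    · exact neg_mem (one_mem k0)
    · exact zero_mem k0
  · ext i j
    fin_cases i <;> fin_cases j <;> simp [Matrix.mul_apply, Fin.sum_univ_two] <;>
      first
        | linear_combination hab
        | linear_combination -hab
        | ring
  · ext i j
    fin_cases i <;> fin_cases j <;> simp [Matrix.mul_apply, Fin.sum_univ_two]
  · ext i j
    fin_cases i <;> fin_cases j <;> simp [Matrix.mul_apply, Fin.sum_univ_two] <;>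
      first
        | linear_combination hab
        | linear_combination -hab
        | ring

end sl

section rep

open Polynomial

theorem rank_aeval_conj {K V : Type*} [Field K] [AddCommGroup V] [Module K V] [FiniteDimensional K V]
    {a b m m' : Module.End K V} (h1 : m * b = a * m) (h2 : m' * m = 1) (P : K[X]) :
    Module.finrank K (LinearMap.range (aeval b P)) ≤ Module.finrank K (LinearMap.range (aeval a P)) := by
  have h3 : m * aeval b P = aeval a P * m := by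
    rw [aeval_eq_sum_range, aeval_eq_sum_range, Finset.mul_sum, Finset.sum_mul]
    refine Finset.sum_congr rfl fun i _ => ?_
    have h4 : SemiconjBy m b a := h1
    rw [mul_smul_comm, smul_mul_assoc, (h4.pow_right i).eq]
  have h5 : aeval b P = m' * (aeval a P * m) := by rw [← h3, ← mul_assoc, h2, one_mul]
  have h6 : LinearMap.range (aeval b P) ≤ (LinearMap.range (aeval a P)).map m' := by
    rw [h5]
    rintro _ ⟨v, rfl⟩
    exact ⟨aeval a P (m v), ⟨m v, rfl⟩, rfl⟩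
  exact (Submodule.finrank_mono h6).trans (Submodule.finrank_map_le _ _)

variable {K : Type*} [Field K]

/-- the natural representation -/
def rep {G : Subgroup (GL I27 K)} (H : Subgroup ↥G) : Representation K ↥H (I27 → K) :=
  ((Matrix.toLinAlgEquiv' : Matrix I27 I27 K ≃ₐ[K] ((I27 → K) →ₗ[K] (I27 → K))) :
    Matrix I27 I27 K →* ((I27 → K) →ₗ[K] (I27 → K))).comp
    ((Units.coeHom (Matrix I27 I27 K)).comp (G.subtype.comp H.subtype))

theorem rep_apply {G : Subgroup (GL I27 K)} (H : Subgroup ↥G) (x : ↥H) :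
    rep H x = (((x : ↥G) : GL I27 K) : Matrix I27 I27 K).mulVecLin := rfl

end rep

section main

variable {K : Type*} [Field K]

theorem mat_pow (g : GL I27 K) (n : ℕ) : ((g ^ n : GL I27 K) : Matrix I27 I27 K) = (g : Matrix I27 I27 K) ^ n :=
  Units.val_pow_eq_pow_val g n

theorem Ph_sq_neg (k : Fin 4) : Ph k (-1 : Matrix (Fin 2) (Fin 2) K) * Ph k (-1) = 1 := by
  rw [Ph_mul, neg_mul_neg, one_mul, Ph_one]

/-- two noncommuting elements of the `k`-th fundamental subgroup in a Sylow subgroup of the normaliser -/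
theorem exists_AB [Finite K] {p : ℕ} [Fact p.Prime] [CharP K p] (h2 : (2 : K) ≠ 0) {G : Subgroup (GL I27 K)}
    {k0 : Subfield K} (hk : FrIn G k0) (P : Sylow 2 (MG G k0)) (k : Fin 4) :
    ∃ A B : Matrix (Fin 2) (Fin 2) K, A.det = 1 ∧ B.det = 1 ∧ A * B ≠ B * A ∧
      (∃ u : MG G k0, u ∈ P ∧ (((u : ↥G) : GL I27 K) : Matrix I27 I27 K) = Ph k A) ∧
      ∃ u : MG G k0, u ∈ P ∧ (((u : ↥G) : GL I27 K) : Matrix I27 I27 K) = Ph k B := by
  obtain ⟨I, J, hI, hJ, hII, hJJ, hIJI⟩ := exists_pair (p := p) k0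
  obtain ⟨u, hu, hu1⟩ := Ph_mem hk k hI
  obtain ⟨v, hv, hv1⟩ := Ph_mem hk k hJ
  set u' : MG G k0 := ⟨⟨u, hu⟩, nrm_Ph hI hu1⟩ with hu'
  set v' : MG G k0 := ⟨⟨v, hv⟩, nrm_Ph hJ hv1⟩ with hv'
  have hcu : ((u' : ↥G) : GL I27 K) = u := rfl
  have hcv : ((v' : ↥G) : GL I27 K) = v := rfl
  have hext : ∀ x y : MG G k0, (((x : ↥G) : GL I27 K) : Matrix I27 I27 K) = (((y : ↥G) : GL I27 K) : Matrix I27 I27 K) →
      x = y := fun x y h => Subtype.ext (Subtype.ext (Units.ext h))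
  have hfour : ∀ w : Matrix (Fin 2) (Fin 2) K, w * w = -1 → (Ph k w) ^ 4 = 1 := by
    intro w hw
    rw [show (4 : ℕ) = 2 * 2 by norm_num, pow_mul, pow_two, pow_two, Ph_mul, hw, Ph_sq_neg]
  have hi : u' ^ 2 ^ 2 = 1 := by
    refine hext _ _ ?_
    simp only [Subgroup.coe_pow, mat_pow, hcu, hu1]
    exact hfour I hII
  have hj : v' ^ 2 ^ 2 = 1 := by
    refine hext _ _ ?_
    simp only [Subgroup.coe_pow, mat_pow, hcv, hv1]
    exact hfour J hJJ
  have hji : v' * u' * v'⁻¹ = u'⁻¹ := by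
    rw [mul_inv_eq_iff_eq_mul, eq_inv_mul_iff_mul_eq]
    refine hext _ _ ?_
    simp only [Subgroup.coe_mul, Units.val_mul, hcu, hcv, hu1, hv1, Ph_mul, hIJI]
  obtain ⟨m, hm⟩ := conj_into P (isPGroup_pair hi hj hji)
  have hmu := hm u' (Subgroup.mem_sup_right (Subgroup.mem_zpowers _))
  have hmv := hm v' (Subgroup.mem_sup_left (Subgroup.mem_zpowers _))
  have hconj : ∀ (w : MG G k0) (W : Matrix (Fin 2) (Fin 2) K), SlIn k0 W →
      (((w : ↥G) : GL I27 K) : Matrix I27 I27 K) = Ph k W → ∃ A, SlIn k0 A ∧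
        ((((m⁻¹ * w * m : MG G k0) : ↥G) : GL I27 K) : Matrix I27 I27 K) = Ph k A := by
    intro w W hW hw
    obtain ⟨A, hA, h1⟩ := (m⁻¹).2 k W hW
    refine ⟨A, hA, ?_⟩
    simp only [Subgroup.coe_mul, Units.val_mul, hw]
    rw [h1, mul_assoc, id_eq, ← Units.val_mul, ← Subgroup.coe_mul, ← Subgroup.coe_mul, inv_mul_cancel]
    simp
  obtain ⟨A, hA, hA1⟩ := hconj u' I hI hu1
  obtain ⟨B, hB, hB1⟩ := hconj v' J hJ hv1
  refine ⟨A, B, hA.1, hB.1, ?_, ⟨_, hmu, hA1⟩, ⟨_, hmv, hB1⟩⟩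
  intro hAB
  have h3 : (m⁻¹ * u' * m) * (m⁻¹ * v' * m) = (m⁻¹ * v' * m) * (m⁻¹ * u' * m) := by
    refine hext _ _ ?_
    rw [Subgroup.coe_mul, Subgroup.coe_mul, Units.val_mul, hA1, hB1, Subgroup.coe_mul, Subgroup.coe_mul, Units.val_mul,
      hA1, hB1, Ph_mul, Ph_mul, hAB]
  have h4 : u' * v' = v' * u' := by
    have h5 : m⁻¹ * (u' * v') * m = m⁻¹ * (v' * u') * m := by
      calc m⁻¹ * (u' * v') * m = (m⁻¹ * u' * m) * (m⁻¹ * v' * m) := by group
        _ = (m⁻¹ * v' * m) * (m⁻¹ * u' * m) := h3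
        _ = m⁻¹ * (v' * u') * m := by group
    exact mul_left_cancel (mul_right_cancel h5)
  have h5 := congrArg (fun x : MG G k0 => (((x : ↥G) : GL I27 K) : Matrix I27 I27 K)) h4
  simp only [Subgroup.coe_mul, Units.val_mul, hcu, hcv, hu1, hv1, Ph_mul] at h5
  have h6 := Ph_inj k h5
  have h7 : J = -J := by
    calc J = I * (J * I) := hIJI.symm
      _ = I * (I * J) := by rw [h6]
      _ = -J := by rw [← mul_assoc, hII, neg_one_mul]
  have h8 : J = 0 := by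
    have : (2 : K) • J = 0 := by
      rw [two_smul]
      nth_rewrite 1 [h7]
      exact neg_add_cancel J
    exact (smul_eq_zero.1 this).resolve_left h2
  have h9 := congrFun (congrFun hJJ 0) 0
  rw [h8] at h9
  simp at h9

theorem coreRow_c_of [Finite K] {p : ℕ} [Fact p.Prime] [CharP K p]
    (hec : ∀ {z : GL I27 K}, z ∈ Zgrp K → ∀ {m : ℕ}, (m : K) ≠ 0 → z ^ m = 1 →
      Module.finrank K (LinearMap.range (((z : Matrix I27 I27 K) - 1).mulVecLin)) ≤ 4 → z = 1)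
    (hed : ∀ {g c : GL I27 K}, g ∈ Zgrp K → c ∈ Zgrp K →
      (∀ k : Fin 4, ∃ A B : Matrix (Fin 2) (Fin 2) K, A.det = 1 ∧ B.det = 1 ∧ A * B ≠ B * A ∧
        (g : Matrix I27 I27 K) * Ph k A = Ph k A * (g : Matrix I27 I27 K) ∧
        (g : Matrix I27 I27 K) * Ph k B = Ph k B * (g : Matrix I27 I27 K)) →
      (∀ k : Fin 4, (g : Matrix I27 I27 K) * Ph k (-1) = Ph k (-1) * (g : Matrix I27 I27 K)) →
      (∀ k : Fin 4, (c : Matrix I27 I27 K) * Ph k (-1) = Ph k (-1) * (c : Matrix I27 I27 K)) → g * c = c * g)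
    (hp : p ≠ 2) {G : Subgroup (GL I27 K)}
    (hG : G ≤ Zgrp K) {k0 : Subfield K} (hk : FrIn G k0)
    (hy : ∀ k : Fin 4, ∃ y ∈ G, Nrm k0 id y ∧ (y : Matrix I27 I27 K) ^ 4 = Ph k (-1) ∧
      ∃ P : Polynomial K, P ≠ 0 ∧ P.natDegree ≤ 4 ∧
        Module.finrank K (LinearMap.range (Polynomial.aeval ((y : Matrix I27 I27 K).mulVecLin) P)) ≤ 2) :
    CoreRow p ↥G := by
  have h2 : (2 : K) ≠ 0 := by
    intro h
    have h3 : ((2 : ℕ) : K) = 0 := by exact_mod_cast h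
    rw [CharP.cast_eq_zero_iff K p] at h3
    exact hp ((Nat.prime_dvd_prime_iff_eq Fact.out Nat.prime_two).1 h3)
  obtain ⟨P⟩ : Nonempty (Sylow 2 (MG G k0)) := inferInstance
  have hext : ∀ x y : MG G k0, (((x : ↥G) : GL I27 K) : Matrix I27 I27 K) = (((y : ↥G) : GL I27 K) : Matrix I27 I27 K) →
      x = y := fun x y h => Subtype.ext (Subtype.ext (Units.ext h))
  refine ⟨(P : Subgroup (MG G k0)).map (MG G k0).subtype, P.2.map _, ?_⟩
  intro H hTH hpH g hg c hc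
  have hgm : ∀ u : MG G k0, u ∈ P → ((g : GL I27 K) : Matrix I27 I27 K) * (((u : ↥G) : GL I27 K) : Matrix I27 I27 K) =
      (((u : ↥G) : GL I27 K) : Matrix I27 I27 K) * ((g : GL I27 K) : Matrix I27 I27 K) := by
    intro u hu
    have h3 := hg u ⟨u, hu, rfl⟩
    have h4 := congrArg (fun x : ↥G => ((x : GL I27 K) : Matrix I27 I27 K)) h3
    simpa only [Subgroup.coe_mul, Units.val_mul] using h4
  -- the central involutions
  have hz : ∀ k : Fin 4, ∃ w : MG G k0, w ∈ P ∧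
      (((w : ↥G) : GL I27 K) : Matrix I27 I27 K) ^ 4 = Ph k (-1) ∧
      ∃ wH : ↥H, (wH : ↥G) = (w : ↥G) ∧ wH ^ 4 ∈ Cfsg.pCore 2 ↥H := by
    intro k
    obtain ⟨y, hyG, hyN, hy4, f, hf0, hfd, hfr⟩ := hy k
    set y' : MG G k0 := ⟨⟨y, hyG⟩, hyN⟩ with hy'
    have hcy : ((y' : ↥G) : GL I27 K) = y := rfl
    have hy8 : y' ^ 2 ^ 3 = 1 := by
      refine hext _ _ ?_
      simp only [Subgroup.coe_pow, mat_pow, hcy]
      rw [show (2 ^ 3 : ℕ) = 4 * 2 by norm_num, pow_mul, hy4, pow_two, Ph_sq_neg]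
      rfl
    obtain ⟨m, hm⟩ := conj_into P (isPGroup_zpowers hy8)
    have hmy := hm y' (Subgroup.mem_zpowers _)
    have hmN : (((m : ↥G) : GL I27 K) : Matrix I27 I27 K) * Ph k (-1) =
        Ph k (-1) * (((m : ↥G) : GL I27 K) : Matrix I27 I27 K) := Nrm.comm h2 m.2 k
    have hw4 : ((((m⁻¹ * y' * m : MG G k0) : ↥G) : GL I27 K) : Matrix I27 I27 K) ^ 4 = Ph k (-1) := by
      have h3 : (m⁻¹ * y' * m) ^ 4 = m⁻¹ * y' ^ 4 * m := by
        have := conj_pow (i := 4) (a := m⁻¹) (b := y')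
        rwa [inv_inv] at this
      rw [← mat_pow, ← Subgroup.coe_pow, ← Subgroup.coe_pow, h3]
      simp only [Subgroup.coe_mul, Subgroup.coe_pow, Units.val_mul, mat_pow, hcy, hy4]
      rw [mul_assoc, ← hmN, ← mul_assoc, ← Units.val_mul, ← Subgroup.coe_mul, ← Subgroup.coe_mul, inv_mul_cancel]
      simp
    refine ⟨m⁻¹ * y' * m, hmy, hw4, ⟨((m⁻¹ * y' * m : MG G k0) : ↥G), hTH ⟨_, hmy, rfl⟩⟩, rfl, ?_⟩
    refine Cfsg.Agent.H408.Hall.MTwo.mem_pCore_of_rank (p := p) (j := 2) (r := 2) hpH (rep H) hf0 (by simpa using hfd)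
      ?_ ?_ ?_
    · refine le_trans ?_ hfr
      refine rank_aeval_conj (m := (((m : ↥G) : GL I27 K) : Matrix I27 I27 K).mulVecLin)
        (m' := ((((m⁻¹ : MG G k0) : ↥G) : GL I27 K) : Matrix I27 I27 K).mulVecLin) ?_ ?_ f
      · rw [rep_apply]
        show _ ∘ₗ _ = _ ∘ₗ _
        rw [← Matrix.mulVecLin_mul, ← Matrix.mulVecLin_mul, ← Units.val_mul, ← Subgroup.coe_mul, ← Subgroup.coe_mul,
          ← mul_assoc, ← mul_assoc, mul_inv_cancel, one_mul]
        rfl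
      · show _ ∘ₗ _ = _
        rw [← Matrix.mulVecLin_mul, ← Units.val_mul, ← Subgroup.coe_mul, ← Subgroup.coe_mul, inv_mul_cancel]
        exact Matrix.mulVecLin_one
    · refine Subtype.ext ?_
      have h3 : (m⁻¹ * y' * m) ^ 2 ^ (2 + 1) = 1 := by
        have := conj_pow (i := 2 ^ 3) (a := m⁻¹) (b := y')
        rw [inv_inv] at this
        rw [this, hy8, mul_one, inv_mul_cancel]
      rw [Subgroup.coe_pow]
      show ((m⁻¹ * y' * m : MG G k0) : ↥G) ^ 2 ^ (2 + 1) = 1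
      rw [← Subgroup.coe_pow, h3]
      rfl
    · intro x _ _ hr
      have hox : (orderOf x : K) ≠ 0 := by
        intro h
        rw [CharP.cast_eq_zero_iff K p] at h
        exact hpH (h.trans (orderOf_dvd_natCard x))
      have h3 := hec (hG (x : ↥G).2) hox (by
        have := pow_orderOf_eq_one x
        have h4 := congrArg (fun t : ↥H => ((t : ↥G) : GL I27 K)) this
        simpa only [Subgroup.coe_pow, Subgroup.coe_one] using h4) (by
        have e : ((((x : ↥G) : GL I27 K) : Matrix I27 I27 K) - 1).mulVecLin = rep H x - 1 := by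
          rw [rep_apply]
          refine LinearMap.ext fun v => ?_
          show ((((x : ↥G) : GL I27 K) : Matrix I27 I27 K) - 1) *ᵥ v = (((x : ↥G) : GL I27 K) : Matrix I27 I27 K) *ᵥ v - v
          rw [Matrix.sub_mulVec, Matrix.one_mulVec]
        rw [e]
        exact hr)
      exact Subtype.ext (Subtype.ext h3)
  have hgz : ∀ k : Fin 4, ((g : GL I27 K) : Matrix I27 I27 K) * Ph k (-1) = Ph k (-1) * ((g : GL I27 K) : Matrix I27 I27 K) := by
    intro k
    obtain ⟨w, hw, hw4, -⟩ := hz k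
    rw [← hw4]
    exact (Commute.pow_right (hgm w hw) 4 : Commute _ _).eq
  have hcz : ∀ k : Fin 4, ((c : GL I27 K) : Matrix I27 I27 K) * Ph k (-1) = Ph k (-1) * ((c : GL I27 K) : Matrix I27 I27 K) := by
    intro k
    obtain ⟨w, hw, hw4, wH, hwH, hcore⟩ := hz k
    have h3 := hc _ hcore
    have h4 := congrArg (fun x : ↥G => ((x : GL I27 K) : Matrix I27 I27 K)) h3
    simp only [Subgroup.coe_mul, Subgroup.coe_pow, Units.val_mul, mat_pow, hwH, hw4] at h4
    exact h4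
  refine Subtype.ext (hed (hG g.2) (hG c.2) ?_ hgz hcz)
  intro k
  obtain ⟨A, B, hA, hB, hAB, ⟨u, hu, hu1⟩, ⟨v, hv, hv1⟩⟩ := exists_AB (p := p) h2 hk P k
  exact ⟨A, B, hA, hB, hAB, by rw [← hu1]; exact hgm u hu, by rw [← hv1]; exact hgm v hv⟩

end main

end Cfsg.Agent.H481.E6C
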